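import Cfsg.Agent.Lib.AutOmegaOdd.Classes
import Cfsg.Agent.Lib.Balance.Core

/-!
Local balance at outer automorphisms of prime order of `PΩ` in odd dimension.
-/

set_option autoImplicit false

namespace Cfsg.Agent.Lib.AutOmegaOdd

open QuadraticMap Matrix Cfsg.Agent.Lib.Classical.Quad Cfsg.Agent.Lib.Classical.QuadOmega

universe u v

variable {m : ℕ} {F : Type u} [Field F] [Fintype F] {K : Type v} [Field K] [Fintype K]
  (hH : Hyp (Qo m F))

theorem cI_innerDiag (h : isoG (Qo m F)) : Cfsg.IsInnerDiagonalAutPOmegaOdd m (cI hH h) := by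
  obtain ⟨g, rfl⟩ := (toI m F).surjective h
  have hg : Cfsg.IsSemisimilarityPair (Cfsg.quadFormOdd m F) (g : GL (I m) F) (RingEquiv.refl F) :=
    ⟨1, fun v => by rw [Units.val_one, one_mul]; exact g.2 v v⟩
  refine ⟨g, ⟨1, fun v => by rw [Units.val_one, one_mul]; exact g.2 v v⟩, ?_⟩
  rw [induced_iff hH hg, ← mul_one (cI hH (toI m F g)),
    show (1 : MulAut (P m F)) = Fld hH 1 from (map_one _).symm, ← D_stdSemi]
  exact congrArg (D hH) (conjG_congr fun v => rfl)

include hH in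
theorem center_P : Subgroup.center (P m F) = ⊥ := by
  rw [Subgroup.eq_bot_iff_forall]
  intro z hz
  obtain ⟨g, rfl⟩ := (toP hH).surjective z
  have : g ∈ Subgroup.center (G (Qo m F)) := Subgroup.mem_center_iff.2 fun k =>
    (toP hH).injective (by rw [map_mul, map_mul]; exact Subgroup.mem_center_iff.1 hz _)
  rw [center_G hH, Subgroup.mem_bot] at this
  rw [this, map_one]

/-- The socle of the fixed points. -/
noncomputable def socFix (ι : K →+* F) : Subgroup (MulAut (P m F)) :=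
  (siegelGroup (Qo m K)).map ((cI hH).comp (liftI ι))

theorem lift_mem_siegel (hm : 3 ≤ m) (ι : K →+* F) {k : isoG (Qo m K)}
    (hk : k ∈ siegelGroup (Qo m K)) (hH : Hyp (Qo m F)) : liftI ι k ∈ siegelGroup (Qo m F) := by
  have hK : Hyp (Qo m K) := hyp_Qo (fun h0 => hH.two (by rw [← map_ofNat ι 2, h0, map_zero])) hm
  rw [← commutator_eq hH.good]
  rw [← commutator_eq hK.good] at hk
  have h : (commutator (isoG (Qo m K))).map (liftI ι) ≤ commutator (isoG (Qo m F)) := by
    rw [commutator_def, commutator_def, Subgroup.map_commutator]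
    exact Subgroup.commutator_mono le_top le_top
  exact h ⟨k, hk, rfl⟩

theorem socFix_eq (hm : 3 ≤ m) {σ : F ≃+* F} (ι : K →+* F)
    (hι : ∀ c : F, σ c = c ↔ c ∈ Set.range ι) :
    socFix hH ι = ⁅Cfsg.inndiagPOmegaOdd m F ⊓ Subgroup.centralizer {Fld hH σ},
      Cfsg.inndiagPOmegaOdd m F ⊓ Subgroup.centralizer {Fld hH σ}⁆ := by
  have hK : Hyp (Qo m K) := hyp_Qo (fun h0 => hH.two (by rw [← map_ofNat ι 2, h0, map_zero])) hm
  rw [socFix, ← range_lift hm hH ι hι, ← commutator_eq hK.good, commutator_def,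
    Subgroup.map_commutator, ← MonoidHom.range_eq_map]

theorem socFix_simple (hm : 3 ≤ m) (ι : K →+* F) :
    IsSimpleGroup (socFix hH ι) ∧ Nat.card (socFix hH ι) = Nat.card (siegelGroup (Qo m K)) := by
  have hK : Hyp (Qo m K) := hyp_Qo (fun h0 => hH.two (by rw [← map_ofNat ι 2, h0, map_zero])) hm
  let φ : G (Qo m K) →* MulAut (P m F) := ((cI hH).comp (liftI ι)).comp (siegelGroup (Qo m K)).subtype
  have hinj : Function.Injective φ := by
    rw [injective_iff_map_eq_one]
    intro k hk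
    rcases (cI_eq_one_iff hH).1 hk with h | h
    · exact Subtype.ext (liftI_injective ι (h.trans (map_one (liftI ι)).symm))
    · rw [← liftI_negOne ι] at h
      refine (neg_absurd hK k 1 fun v => ?_).elim
      rw [show k.1 = negOne (Qo m K) from liftI_injective ι h, negOne_apply]; rfl
  have hr : φ.range = socFix hH ι := by
    show (((cI hH).comp (liftI ι)).comp (siegelGroup (Qo m K)).subtype).range = _
    rw [MonoidHom.range_comp, Subgroup.range_subtype]; rfl
  let e : G (Qo m K) ≃* socFix hH ι :=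
    (MonoidHom.ofInjective hinj).trans (MulEquiv.subgroupCongr hr)
  haveI := isSimple_POmega_odd (F := K) hK.two hm
  exact ⟨(e.symm.trans (toP hK)).isSimpleGroup, Nat.card_congr e.symm.toEquiv⟩

theorem two_dvd_card_siegel (hm : 3 ≤ m) {hK : Hyp (Qo m K)} :
    2 ∣ Nat.card (siegelGroup (Qo m K)) := by
  set u : I m → K := Pi.single (.inl ()) 1 with hu
  set i : Fin m := ⟨0, by omega⟩
  set w : I m → K := Pi.single (.inr (.inl i)) 1 + Pi.single (.inr (.inr i)) 1 with hw
  have hQu : Qo m K u = 1 := by simp [hu, Qo_formula]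
  have hQw : Qo m K w = 1 := by simp [hw, Qo_formula, Pi.single_apply]
  have hu0 : Qo m K u ≠ 0 := by rw [hQu]; exact one_ne_zero
  have hw0 : Qo m K w ≠ 0 := by rw [hQw]; exact one_ne_zero
  have huw : polar (Qo m K) u w = 0 := by
    simp [hu, hw, polar, Qo_formula, Pi.single_apply]
  have hmem : refl (Qo m K) u * refl (Qo m K) w ∈ siegelGroup (Qo m K) := by
    have h := QuotientGroup.eq.1 (mk_refl_eq hK.good hw0 (hQu.trans hQw.symm))
    rwa [refl_inv hu0] at h
  set z : siegelGroup (Qo m K) := ⟨_, hmem⟩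
  have hact : ∀ v, z.1.1 v =
      v - polar (Qo m K) v w • w - polar (Qo m K) v u • u := fun v => by
    show (refl (Qo m K) u).1 ((refl (Qo m K) w).1 v) = _
    rw [refl_apply hw0, refl_apply hu0, hQu, hQw, div_one, div_one, polar_sub_left, polar_smul_left,
      polar_comm (Qo m K) w u, huw]
    simp
  have hzu : z.1.1 u = -u := by
    rw [hact, huw, polar_self, hQu]
    module
  have hz2 : z * z = 1 := G_ext fun v => by
    rw [G_mul, hact, hact v, G_one]
    simp only [polar_sub_left, polar_smul_left, polar_self, hQu, hQw, huw, polar_comm (Qo m K) w u,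
      smul_eq_mul, nsmul_eq_mul, mul_zero, sub_zero]
    module
  have hz1 : z ≠ 1 := fun h => by
    rw [h, G_one] at hzu
    have : (2 : K) • u = 0 := by rw [two_smul]; nth_rewrite 1 [hzu]; exact neg_add_cancel u
    rcases smul_eq_zero.1 this with h2 | h2
    · exact hK.two h2
    · exact hu0 (by rw [h2, map_zero])
  rw [← orderOf_eq_prime (p := 2) (by rw [pow_two, hz2]) hz1]
  exact orderOf_dvd_natCard z

include hH in
/-- An element of the centraliser commuting with the socle is a power of the field automorphism. -/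
theorem mem_zpowers_of_centralizes (hm : 3 ≤ m) {σ : F ≃+* F} (ι : K →+* F)
    (hι : ∀ c : F, σ c = c ↔ c ∈ Set.range ι) {c : MulAut (P m F)}
    (hc : c ∈ Subgroup.centralizer {Fld hH σ}) (ht : ∀ t ∈ socFix hH ι, c * t = t * c) :
    c ∈ Subgroup.zpowers (Fld hH σ) := by
  classical
  have hK : Hyp (Qo m K) := hyp_Qo (fun h0 => hH.two (by rw [← map_ofNat ι 2, h0, map_zero])) hm
  obtain ⟨g, τ, rfl⟩ := std_all_P hH c
  have hcomm : σ * τ = τ * σ := by
    obtain ⟨d, hpp, hF⟩ := FiniteField.card F (ringChar F)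
    haveI : Fact (ringChar F).Prime := ⟨hpp⟩
    obtain ⟨e⟩ := AutPSL.ringAut_equiv (F := F) (f := (d : ℕ)) d.2 hF
    exact e.injective (by rw [map_mul, map_mul, mul_comm])
  have hg : cI hH g ∈ Subgroup.centralizer {Fld hH σ} := by
    rw [Subgroup.mem_centralizer_singleton_iff] at hc ⊢
    refine mul_right_cancel (b := Fld hH τ) ?_
    rw [mul_assoc, ← map_mul (Fld hH), hcomm, map_mul (Fld hH), ← mul_assoc, hc, mul_assoc]
  obtain ⟨g₀, rfl⟩ := (cI_centralizes_iff hm hH ι hι).1 hg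
  have hτK : ∀ a : K, ∃ b : K, ι b = τ (ι a) := fun a => (hι _).1 (by
    rw [← RingAut.mul_apply, hcomm, RingAut.mul_apply, (hι _).2 ⟨a, rfl⟩])
  choose τ₀f hτ₀ using hτK
  let τ₀h : K →+* K :=
    { toFun := τ₀f
      map_one' := ι.injective (by rw [hτ₀, map_one, map_one])
      map_mul' := fun a b => ι.injective (by rw [hτ₀, map_mul, map_mul, map_mul, hτ₀, hτ₀])
      map_zero' := ι.injective (by rw [hτ₀, map_zero, map_zero])
      map_add' := fun a b => ι.injective (by rw [hτ₀, map_add, map_add, map_add, hτ₀, hτ₀]) }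
  let τ₀ : K ≃+* K := RingEquiv.ofBijective τ₀h (Finite.injective_iff_bijective.1 τ₀h.injective)
  have hτι : ∀ a, τ (ι a) = ι (τ₀ a) := fun a => (hτ₀ a).symm
  have hmap : ∀ k : isoG (Qo m K), mapI τ (liftI ι k) = liftI ι (mapI τ₀ k) := by
    intro k
    refine iso_ext_base ι fun v => ?_
    have hv : (fun i => ι (v i)) = fun i => τ (ι (τ₀.symm (v i))) := funext fun i => by
      rw [hτι, RingEquiv.apply_symm_apply]
    rw [liftI_apply]
    conv_lhs => rw [hv, mapI_apply τ, liftI_apply]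
    funext i
    rw [hτι]
    congr 1
  have h0 : cI hK g₀ * Fld hK τ₀ = 1 := by
    rw [← D_stdSemi, D_eq_one_iff]
    refine MulEquiv.ext fun t => Subtype.ext (liftI_injective ι ?_)
    show liftI ι ((stdSemi g₀ τ₀).conjI t.1) = liftI ι t.1
    have e : (stdSemi g₀ τ₀).conjI t.1 = g₀ * mapI τ₀ t.1 * g₀⁻¹ := iso_ext fun v => rfl
    have h := ht _ ⟨t.1, t.2, rfl⟩
    rw [MonoidHom.comp_apply, mul_assoc, twist, hmap, ← mul_assoc, ← map_mul, ← mul_assoc (cI hH _),
      ← map_mul, mul_left_inj, ← map_mul, cI_eq_iff] at h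
    rw [e, map_mul, map_mul, map_inv, mul_inv_eq_iff_eq_mul, ← map_mul]
    rcases h with h | h
    · exact h
    · exfalso
      set t' : isoG (Qo m F) := liftI ι (g₀ * mapI τ₀ t.1 * g₀⁻¹) with ht'
      have hm1 : t' ∈ siegelGroup (Qo m F) :=
        lift_mem_siegel hm ι (by rw [← e]; exact (stdSemi g₀ τ₀).conjI_mem t.2) hH
      have hm2 : liftI ι t.1 ∈ siegelGroup (Qo m F) := lift_mem_siegel hm ι t.2 hH
      have e2 : t' = negOne (Qo m F) * liftI ι t.1 := by
        rw [ht', map_mul, map_mul, map_inv, mul_inv_eq_iff_eq_mul, mul_assoc, ← map_mul]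
        exact h
      exact neg_absurd hH ⟨t', hm1⟩ ⟨_, hm2⟩ fun v => by
        show t'.1 v = -((liftI ι t.1).1 v)
        rw [e2]; rfl
  have hτ1 : τ₀ = 1 := std_unique hK hm h0
  rw [hτ1, map_one, mul_one, cI_eq_one_iff] at h0
  have hg1 : cI hH (liftI ι g₀) = 1 := by
    rcases h0 with e | e
    · rw [e, map_one, map_one]
    · rw [e, liftI_negOne, cI_negOne]
  rw [hg1, one_mul]
  obtain ⟨j, hj⟩ : τ ∈ Subgroup.zpowers σ := by
    haveI : Finite (F ≃+* F) := Finite.of_injective (fun e : F ≃+* F => (e : F → F)) DFunLike.coe_injective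
    let H : Subgroup (F ≃+* F) := Subgroup.zpowers σ
    letI : Fintype H := Fintype.ofFinite H
    let L := FixedPoints.subfield H F
    let τ' : F →ₐ[L] F :=
      { τ.toRingHom with
        commutes' := fun a => by
          have ha : σ (a : F) = a := a.2 ⟨σ, Subgroup.mem_zpowers σ⟩
          obtain ⟨b, hb⟩ := (hι _).1 ha
          show τ (a : F) = a
          rw [← hb, hτι, hτ1, RingAut.one_apply] }
    obtain ⟨s, hs⟩ := (FixedPoints.toAlgHom_bijective H F).2 τ'
    have : (s : F ≃+* F) = τ := RingEquiv.ext fun a => AlgHom.congr_fun hs a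
    rw [← this]; exact s.2
  exact ⟨j, by rw [← hj, map_zpow]⟩

include hH in
theorem balance (hm : 3 ≤ m) (A : Subgroup (MulAut (P m F)))
    (hinn : ∀ k : P m F, MulAut.conj k ∈ A) {p : ℕ} [Fact p.Prime] {x : MulAut (P m F)} (hxA : x ∈ A)
    (hord : orderOf x = p) (hnot : ¬ Cfsg.IsInnerDiagonalAutPOmegaOdd m x) :
    Cfsg.pPrimeCore p ↥(A ⊓ Subgroup.centralizer {x}) ≠ ⊥ ↔
      (Cfsg.IsFieldAutClassPOmega (Cfsg.quadFormOdd m F) x ∧ Nat.Coprime p
        (Nat.card ↥(MonoidHom.eqLocus x.toMonoidHom (MonoidHom.id (P m F))))) := by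
  classical
  have hp : p.Prime := Fact.out
  obtain ⟨h, σ, rfl⟩ := std_all_P hH x
  have hσ1 : σ ≠ 1 := fun e => hnot (by rw [e, map_one, mul_one]; exact cI_innerDiag hH h)
  have hσp : orderOf σ = p := orderOf_eq_prime (by
    have e : (cI hH h * Fld hH σ) ^ p = 1 := by rw [← hord]; exact pow_orderOf_eq_one _
    have := congrArg (outHom hH hm) e
    rw [map_pow, outHom_std, map_one] at this
    exact congrArg Prod.snd this) hσ1
  obtain ⟨a, ha⟩ := exists_conj_of_field hm hH hσp hp.pos h (by rw [← hord]; exact pow_orderOf_eq_one _)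
  set S := Fld hH σ
  set x := cI hH h * Fld hH σ with hxdef
  have hconj : (cI hH a)⁻¹ * x * ((cI hH a)⁻¹)⁻¹ = S := by rw [ha]; group
  have hfield : Cfsg.IsFieldAutClassPOmega (Cfsg.quadFormOdd m F) x :=
    ⟨(cI hH a)⁻¹, S, σ, hσ1, (fieldAut_iff hH).2 rfl, hconj⟩
  haveI : (Cfsg.Inn (P m F)).Normal := AutPSp.normal_inn
  haveI := inndiag_normal hH
  haveI : Finite (P m F) := inferInstance
  haveI : Finite (MulAut (P m F)) :=
    Finite.of_injective (fun e : MulAut (P m F) => (e : P m F → P m F)) DFunLike.coe_injective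
  set A' := A.map (MulAut.conj (cI hH a)⁻¹).toMonoidHom
  have hinn' : Cfsg.Inn (P m F) ≤ A' := by
    rw [← AutPSp.map_conj_normal (Cfsg.Inn (P m F)) (cI hH a)⁻¹]
    exact Subgroup.map_mono fun z hz => by obtain ⟨k, rfl⟩ := hz; exact hinn k
  have hSA : S ∈ A' := ⟨x, hxA, hconj⟩
  obtain ⟨e⟩ := Balance.centralizer_conj_equiv A (cI hH a)⁻¹ x
  rw [hconj] at e
  rw [Balance.core_ne_bot_congr e, ← Balance.card_inn_inf (center_P hH)]
  have hcard : Nat.card ↥(Cfsg.Inn (P m F) ⊓ Subgroup.centralizer {x}) =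
      Nat.card ↥(Cfsg.Inn (P m F) ⊓ Subgroup.centralizer {S}) := by
    obtain ⟨e'⟩ := AutPSp.centralizerEquiv (H := Cfsg.Inn (P m F)) (cI hH a)⁻¹ x
    rw [hconj] at e'
    exact Nat.card_congr e'.toEquiv
  rw [hcard, and_iff_right hfield]
  let K := fixF σ
  letI : Fintype K := Fintype.ofFinite K
  let ι : K →+* F := K.subtype
  have hι : ∀ c : F, σ c = c ↔ c ∈ Set.range ι := fun c =>
    ⟨fun hx => ⟨⟨c, mem_fixF.2 hx⟩, rfl⟩, fun ⟨y, hy⟩ => hy ▸ mem_fixF.1 y.2⟩
  have hK : Hyp (Qo m K) := hyp_Qo (fun h0 => hH.two (by rw [← map_ofNat ι 2, h0, map_zero])) hm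
  have hTC : socFix hH ι ≤ Subgroup.centralizer {S} := by
    rintro _ ⟨k, -, rfl⟩
    exact (cI_centralizes_iff hm hH ι hι).2 ⟨k, rfl⟩
  have hTI : socFix hH ι ≤ Cfsg.Inn (P m F) := by
    rintro _ ⟨k, hk, rfl⟩
    exact (cI_mem_inn hH).2 (chi_of_mem hH (lift_mem_siegel hm ι hk hH))
  obtain ⟨hsimp, hTcard⟩ := socFix_simple hH hm ι
  refine Balance.core_ne_bot_iff (T := socFix hH ι) (S := S) ?_ (inf_le_inf_right _ hinn') ?_
    (le_inf (hTI.trans hinn') hTC) ?_ hsimp ?_ ?_ fun c hc ht =>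
      mem_zpowers_of_centralizes hH hm ι hι (Subgroup.mem_inf.1 hc).2 ht
  · rw [orderOf_Fld hH hm, hσp]
  · intro c hc z hz
    obtain ⟨hz1, hz2⟩ := Subgroup.mem_inf.1 hz
    exact Subgroup.mem_inf.2 ⟨(AutPSp.normal_inn (T := P m F)).conj_mem z hz1 c,
      mul_mem (mul_mem (Subgroup.mem_inf.1 hc).2 hz2) (inv_mem (Subgroup.mem_inf.1 hc).2)⟩
  · intro c hc z hz
    set H0 := Cfsg.inndiagPOmegaOdd m F ⊓ Subgroup.centralizer {S}
    have hH0 : H0.map (MulAut.conj c).toMonoidHom ≤ H0 := by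
      rintro _ ⟨y, hy, rfl⟩
      obtain ⟨hy1, hy2⟩ := Subgroup.mem_inf.1 hy
      exact Subgroup.mem_inf.2 ⟨(inndiag_normal hH).conj_mem y hy1 c,
        mul_mem (mul_mem (Subgroup.mem_inf.1 hc).2 hy2) (inv_mem (Subgroup.mem_inf.1 hc).2)⟩
    rw [socFix_eq hH hm ι hι] at hz ⊢
    have hcm := Subgroup.commutator_mono hH0 hH0
    rw [← Subgroup.map_commutator] at hcm
    exact hcm (Subgroup.mem_map_of_mem _ hz)
  · intro hb
    haveI := hsimp
    refine Subgroup.ne_bot_iff_exists_ne_one.2 ?_ (le_bot_iff.1 (hb ▸ le_inf hTI hTC))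
    exact exists_ne 1
  · intro hp'
    rw [hTcard]
    have h1 : Nat.card ↥(Cfsg.Inn (P m F) ⊓ Subgroup.centralizer {S}) ∣
        4 * Nat.card (siegelGroup (Qo m K)) := by
      refine (Subgroup.card_dvd_of_le (inf_le_inf_right _ ?_)).trans ?_
        (b := Nat.card ↥(Cfsg.inndiagPOmegaOdd m F ⊓ Subgroup.centralizer {S}))
      · rw [inndiag_eq hH]; exact inn_le hH
      · rw [← range_lift hm hH ι hι, ← card_quot_odd hK.good hK.two,
          ← Subgroup.card_eq_card_quotient_mul_card_subgroup]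
        exact Subgroup.card_range_dvd _
    rcases hp.dvd_mul.1 (hp'.trans h1) with h4 | h4
    · rw [(Nat.prime_dvd_prime_iff_eq hp Nat.prime_two).1
        (hp.dvd_of_dvd_pow (show p ∣ 2 ^ 2 from h4))]
      exact two_dvd_card_siegel hm (hK := hK)
    · exact h4

end Cfsg.Agent.Lib.AutOmegaOdd
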